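import Mathlib

/-!
`Aut(Q₈) ≅ S₄`: the action on the four diagonals of the cube with vertices the sign choices in
`(±i, ±j, ±k)`.
-/

set_option autoImplicit false

namespace Cfsg.Agent.H83

open QuaternionGroup

/-- The endomap of `Q₈` given by images of the two generators. -/
def q8End (u v : QuaternionGroup 2) : QuaternionGroup 2 → QuaternionGroup 2
  | a k => u ^ k.val
  | xa k => v * u ^ k.val

/-- Representatives of the four diagonals. -/
def q8Diag : Fin 4 → Fin 3 → QuaternionGroup 2 :=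
  ![![a 1, xa 0, xa 3], ![a 1, xa 2, xa 1], ![a 3, xa 0, xa 1], ![a 3, xa 2, xa 3]]

/-- `f` maps the diagonal `d` to the diagonal `e`. -/
def DiagMap (f : QuaternionGroup 2 → QuaternionGroup 2) (d e : Fin 4) : Prop :=
  (∀ k, ∃ l, f (q8Diag d k) = q8Diag e l) ∨ (∀ k, ∃ l, (f (q8Diag d k))⁻¹ = q8Diag e l)

instance (f : QuaternionGroup 2 → QuaternionGroup 2) (d e : Fin 4) : Decidable (DiagMap f d e) :=
  inferInstanceAs (Decidable (_ ∨ _))

theorem q8End_diag : ∀ u v : QuaternionGroup 2,
    (∀ x y, q8End u v (x * y) = q8End u v x * q8End u v y) →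
    (∀ x y, q8End u v x = q8End u v y → x = y) →
    (∀ d, ∃ e, DiagMap (q8End u v) d e) ∧
      (∀ d e e', DiagMap (q8End u v) d e → DiagMap (q8End u v) d e' → e = e') ∧
      ((∀ d, DiagMap (q8End u v) d d) → ∀ x, q8End u v x = x) := by
  decide +kernel

theorem q8End_surj : ∀ σ : Fin 4 → Fin 4, (∀ x y, σ x = σ y → x = y) →
    ∃ u v : QuaternionGroup 2, (∀ x y, q8End u v (x * y) = q8End u v x * q8End u v y) ∧
      (∀ x y, q8End u v x = q8End u v y → x = y) ∧ ∀ d, DiagMap (q8End u v) d (σ d) := by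
  decide +kernel

/-- An automorphism of `Q₈` is determined by the images of the generators. -/
theorem q8End_eq (α : MulAut (QuaternionGroup 2)) :
    q8End (α (a 1)) (α (xa 0)) = α := by
  funext x
  cases x with
  | a k =>
    change α (a 1) ^ k.val = α (a k)
    rw [← map_pow, a_one_pow, ZMod.natCast_zmod_val]
  | xa k =>
    change α (xa 0) * α (a 1) ^ k.val = α (xa k)
    rw [← map_pow, ← map_mul, a_one_pow, ZMod.natCast_zmod_val, xa_mul_a, zero_add]

theorem diag_spec (α : MulAut (QuaternionGroup 2)) :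
    (∀ d, ∃ e, DiagMap α d e) ∧ (∀ d e e', DiagMap α d e → DiagMap α d e' → e = e') ∧
      ((∀ d, DiagMap α d d) → α = 1) := by
  have h := q8End_diag (α (a 1)) (α (xa 0)) (fun x y => by rw [q8End_eq, map_mul])
    (fun x y h => by rw [q8End_eq] at h; exact α.injective h)
  rw [q8End_eq] at h
  exact ⟨h.1, h.2.1, fun hd => MulEquiv.ext (h.2.2 hd)⟩

theorem diagMap_comp {α β : MulAut (QuaternionGroup 2)} {d e e' : Fin 4} (h : DiagMap β d e)
    (h' : DiagMap α e e') : DiagMap (α * β : MulAut _) d e' := by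
  rcases h with h | h <;> rcases h' with h' | h'
  · left; intro k
    obtain ⟨l, hl⟩ := h k
    obtain ⟨m, hm⟩ := h' l
    exact ⟨m, by rw [MulAut.mul_apply, hl, hm]⟩
  · right; intro k
    obtain ⟨l, hl⟩ := h k
    obtain ⟨m, hm⟩ := h' l
    exact ⟨m, by rw [MulAut.mul_apply, hl, hm]⟩
  · right; intro k
    obtain ⟨l, hl⟩ := h k
    obtain ⟨m, hm⟩ := h' l
    exact ⟨m, by rw [MulAut.mul_apply, ← map_inv, hl, hm]⟩
  · left; intro k
    obtain ⟨l, hl⟩ := h k
    obtain ⟨m, hm⟩ := h' l
    exact ⟨m, by rw [MulAut.mul_apply, ← hm, ← map_inv, ← hl, inv_inv]⟩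

theorem aut_q8_equiv : Nonempty (MulAut (QuaternionGroup 2) ≃* Equiv.Perm (Fin 4)) := by
  choose f hf using fun α => (diag_spec α).1
  have huniq : ∀ α d e, DiagMap (α : MulAut (QuaternionGroup 2)) d e → f α d = e := fun α d e h =>
    (diag_spec α).2.1 d _ _ (hf α d) h
  have hone : ∀ d, f 1 d = d := fun d => huniq 1 d d (Or.inl fun k => ⟨k, rfl⟩)
  have hmul : ∀ α β d, f (α * β) d = f α (f β d) := fun α β d =>
    huniq _ _ _ (diagMap_comp (hf β d) (hf α _))
  let F : MulAut (QuaternionGroup 2) →* Equiv.Perm (Fin 4) :=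
    { toFun := fun α =>
        { toFun := f α
          invFun := f α⁻¹
          left_inv := fun d => by rw [← hmul, inv_mul_cancel, hone]
          right_inv := fun d => by rw [← hmul, mul_inv_cancel, hone] }
      map_one' := Equiv.ext hone
      map_mul' := fun α β => Equiv.ext (hmul α β) }
  refine ⟨MulEquiv.ofBijective F ⟨(injective_iff_map_eq_one F).2 fun α hα => ?_, fun σ => ?_⟩⟩
  · refine (diag_spec α).2.2 fun d => ?_
    have h : f α d = d := congrArg (fun s : Equiv.Perm (Fin 4) => s d) hα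
    have h' := hf α d
    rwa [h] at h'
  · obtain ⟨u, v, hm, hi, hd⟩ := q8End_surj σ (fun x y h => σ.injective h)
    let α : MulAut (QuaternionGroup 2) := MulEquiv.ofBijective (MonoidHom.mk' (q8End u v) hm)
      ⟨fun x y h => hi x y h, Finite.surjective_of_injective fun x y h => hi x y h⟩
    exact ⟨α, Equiv.ext fun d => huniq α d _ (hd d)⟩

end Cfsg.Agent.H83
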