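import Cfsg.Agent.H83.Minimal
import Cfsg.Agent.H83.Baer

/-! Thompson's strengthened `P × Q` lemma for odd primes. -/

set_option autoImplicit false
open scoped commutatorElement

namespace Cfsg.Agent.H83

variable {X : Type*} [Group X]

/-- The minimal case: `G` has class at most two and exponent `p`. -/
theorem thompson_pq_exp [Finite X] {p : ℕ} [hp : Fact p.Prime] (hp2 : p ≠ 2) (P Q G : Subgroup X)
    (hP : IsPGroup p P) (hQ : (Nat.card Q).Coprime p) (hPQ : P ≤ Subgroup.normalizer (Q : Set X))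
    (hG : IsPGroup p G) (hPG : P ≤ Subgroup.normalizer (G : Set X))
    (hQG : Q ≤ Subgroup.normalizer (G : Set X))
    (hC : G ⊓ Subgroup.centralizer (P : Set X) ≤ Subgroup.centralizer (Q : Set X))
    (hc : ∀ a b : G, ⁅a, b⁆ ∈ Subgroup.center G) (he : ∀ x : G, x ^ p = 1) :
    Q ≤ Subgroup.centralizer (G : Set X) := by
  classical
  haveI := Fintype.ofFinite Q
  have h2 : ∀ a b : G, ⁅a, b⁆ ^ (2 * ((p + 1) / 2)) = ⁅a, b⁆ := by
    intro a b
    obtain ⟨m, hm⟩ := hp.out.odd_of_ne_two hp2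
    have e : 2 * ((p + 1) / 2) = p + 1 := by omega
    rw [e, pow_succ, he, one_mul]
  letI := baerGroup hc ((p + 1) / 2) h2
  let ψ : (Subgroup.normalizer (G : Set X) : Subgroup X) → (G →+ G) := fun g =>
    { toFun := fun v => H20.conjAut (le_refl _) g v
      map_zero' := map_one (H20.conjAut (le_refl _) g)
      map_add' := fun v w => by
        show H20.conjAut (le_refl _) g (v * w * ⁅w, v⁆ ^ ((p + 1) / 2)) = _
        rw [map_mul, map_mul, map_pow, map_commutatorElement]
        rfl }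
  have hψ : ∀ g (v : G), ((ψ g v : G) : X) = g * v * (g : X)⁻¹ := fun g v => H20.coe_conjAut _ g v
  let θ : G →+ G := ∑ q : Q, ψ ⟨q, hQG q.2⟩
  have hθ : ∀ v, θ v = ∑ q : Q, ψ ⟨q, hQG q.2⟩ v := fun v => AddMonoidHom.finset_sum_apply _ _ _
  have hθQ : ∀ (r : Q) v, θ (ψ ⟨r, hQG r.2⟩ v) = θ v := by
    intro r v
    rw [hθ, hθ]
    refine Fintype.sum_equiv (Equiv.mulRight r) _ _ fun q => Subtype.ext ?_
    simp only [hψ, Equiv.coe_mulRight, Subgroup.coe_mul]
    group
  have hθP : ∀ (x : P) v, θ (ψ ⟨x, hPG x.2⟩ v) = ψ ⟨x, hPG x.2⟩ (θ v) := by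
    intro x v
    rw [hθ, hθ, map_sum]
    let e : Q ≃ Q :=
      { toFun := fun q => ⟨(x : X)⁻¹ * q * x, H20.inv_conj_mem_of_le_normalizer hPQ x.2 q.2⟩
        invFun := fun q => ⟨(x : X) * q * (x : X)⁻¹, H20.conj_mem_of_le_normalizer hPQ x.2 q.2⟩
        left_inv := fun q => Subtype.ext (by simp [mul_assoc])
        right_inv := fun q => Subtype.ext (by simp [mul_assoc]) }
    refine Fintype.sum_equiv e _ _ fun q => Subtype.ext ?_
    simp only [hψ, e, Equiv.coe_fn_mk]
    group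
  intro q hq
  rw [Subgroup.mem_centralizer_iff]
  intro v hv
  by_contra hne
  -- a nonzero element of the kernel of the averaging map
  let w : G := ψ ⟨q, hQG hq⟩ ⟨v, hv⟩ - ⟨v, hv⟩
  have hw0 : w ≠ 0 := by
    intro h
    have := congrArg Subtype.val (sub_eq_zero.1 h)
    rw [hψ] at this
    exact hne ((mul_inv_eq_iff_eq_mul.1 this).symm)
  have hw : w ∈ θ.ker := by
    rw [AddMonoidHom.mem_ker, map_sub, hθQ ⟨q, hq⟩, sub_self]
  letI act : MulAction P θ.ker :=
    { smul := fun x u => ⟨ψ ⟨x, hPG x.2⟩ u.1, by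
        rw [AddMonoidHom.mem_ker, hθP, AddMonoidHom.mem_ker.1 u.2, map_zero]⟩
      one_smul := fun u => Subtype.ext (Subtype.ext (by
        show ((ψ _ u.1 : G) : X) = ((u.1 : G) : X)
        rw [hψ]; simp))
      mul_smul := fun x y u => Subtype.ext (Subtype.ext (by
        show ((ψ _ u.1 : G) : X) = ((ψ _ (ψ _ u.1) : G) : X)
        rw [hψ, hψ, hψ]; simp [mul_assoc])) }
  have hdvd : p ∣ Nat.card θ.ker := by
    obtain ⟨k, hk⟩ := IsPGroup.iff_card.1 hG
    have h := AddSubgroup.card_addSubgroup_dvd_card θ.ker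
    rw [hk, Nat.dvd_prime_pow hp.out] at h
    obtain ⟨j, -, hj⟩ := h
    rcases Nat.eq_zero_or_pos j with rfl | hj0
    · rw [pow_zero, AddSubgroup.card_eq_one] at hj
      rw [hj, AddSubgroup.mem_bot] at hw
      exact absurd hw hw0
    · rw [hj]; exact dvd_pow_self p (by omega)
  obtain ⟨u, hu, hu0⟩ := hP.exists_fixed_point_of_prime_dvd_card_of_fixed_point θ.ker hdvd
    (a := 0) (fun x => Subtype.ext (map_zero (ψ ⟨x, hPG x.2⟩)))
  refine hu0 (Subtype.ext ?_)
  have hC' : ((u.1 : G) : X) ∈ Subgroup.centralizer (Q : Set X) := by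
    refine hC ⟨(u.1 : G).2, ?_⟩
    show ((u.1 : G) : X) ∈ Subgroup.centralizer (P : Set X)
    rw [Subgroup.mem_centralizer_iff]
    intro x hx
    have := congrArg (fun z : θ.ker => ((z.1 : G) : X)) (hu ⟨x, hx⟩)
    exact mul_inv_eq_iff_eq_mul.1 ((hψ _ _).symm.trans this)
  have hfix : θ u.1 = Nat.card Q • u.1 := by
    rw [hθ, Finset.sum_congr rfl (g := fun _ => (u.1 : G)) (fun r _ => Subtype.ext (by
      rw [hψ, mul_inv_eq_iff_eq_mul]
      exact Subgroup.mem_centralizer_iff.1 hC' r r.2))]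
    simp [Nat.card_eq_fintype_card]
  have h0 : (u.1 : G) ^ Nat.card Q = 1 := by
    rw [AddMonoidHom.mem_ker.1 u.2] at hfix
    exact hfix.symm
  have hord := Nat.dvd_gcd (orderOf_dvd_of_pow_eq_one h0) (orderOf_dvd_of_pow_eq_one (he u.1))
  rw [hQ.gcd_eq_one, Nat.dvd_one, orderOf_eq_one_iff] at hord
  exact hord.symm

/-- Thompson's strengthened `P × Q` lemma: for odd `p`, if the fixed points of `P` are centralised
by the `p'`-group `Q` normalised by `P`, then `Q` centralises the whole `p`-group. -/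
theorem thompson_pq [Finite X] {p : ℕ} [hp : Fact p.Prime] (hp2 : p ≠ 2) (P Q : Subgroup X)
    (hP : IsPGroup p P) (hQ : (Nat.card Q).Coprime p) (hPQ : P ≤ Subgroup.normalizer (Q : Set X))
    (G : Subgroup X) (hG : IsPGroup p G) (hPG : P ≤ Subgroup.normalizer (G : Set X))
    (hQG : Q ≤ Subgroup.normalizer (G : Set X))
    (hC : G ⊓ Subgroup.centralizer (P : Set X) ≤ Subgroup.centralizer (Q : Set X)) :
    Q ≤ Subgroup.centralizer (G : Set X) := by
  classical
  induction hn : Nat.card G using Nat.strong_induction_on generalizing G with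
  | _ n ih =>
    by_cases hnt : ⁅G, Q⁆ = ⊥
    · exact H20.le_centralizer_of_commutator_eq_bot hnt
    have hmin : ∀ U : Subgroup X, U < G → P ⊔ Q ≤ Subgroup.normalizer (U : Set X) → ⁅U, Q⁆ = ⊥ := by
      intro U hU hB
      have hlt : Nat.card U < n := hn ▸ lt_of_not_ge fun h =>
        hU.ne (Subgroup.eq_of_le_of_card_ge hU.le h)
      have h := ih _ hlt U (hG.to_le hU.le) (le_sup_left.trans hB) (le_sup_right.trans hB)
        (le_trans (inf_le_inf_right _ hU.le) hC) rfl
      exact Subgroup.commutator_eq_bot_iff_le_centralizer.2 (Subgroup.le_centralizer_iff.1 h)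
    obtain ⟨-, -, -, -, -, hcen, hcomm, -, -, -, hexp⟩ := minimal_action (P ⊔ Q) Q G hG
      (sup_le hPG hQG) le_sup_right (sup_le hPQ Subgroup.le_normalizer) hQ hnt hmin
    refine thompson_pq_exp hp2 P Q G hP hQ hPQ hG hPG hQG hC (fun a b => ?_)
      (fun x => Subtype.ext (hexp hp2 x x.2))
    rw [Subgroup.mem_center_iff]
    intro c
    exact Subtype.ext (Subgroup.mem_centralizer_iff.1 (hcen c.2) _
      (hcomm (Subgroup.commutator_mem_commutator a.2 b.2))).symm

end Cfsg.Agent.H83
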